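import Mathlib

set_option autoImplicit false

/-! Automorphisms of prime order `q ≠ p` of abelian `p`-groups: `q ∣ p ^ i - 1` for some
`1 ≤ i ≤ rank`. -/

namespace Cfsg.Agent.Lib.Helper21.CoprimeAut

/-- A commutative group generated by `S` with `s ^ p = 1` has at most `p ^ |S|` elements. -/
theorem card_closure_le {Q : Type*} [CommGroup Q] [Finite Q] (p : ℕ) (hp : 0 < p) (S : Finset Q)
    (hS : ∀ s ∈ S, s ^ p = 1) : Nat.card (Subgroup.closure (S : Set Q)) ≤ p ^ S.card := by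
  classical
  induction S using Finset.induction_on with
  | empty => simp
  | insert a S ha ih =>
    rw [Finset.coe_insert, Finset.card_insert_of_notMem ha]
    have h1 : Subgroup.closure (insert a (S : Set Q)) =
        Subgroup.zpowers a ⊔ Subgroup.closure (S : Set Q) := by
      rw [Set.insert_eq, Subgroup.closure_union, Subgroup.zpowers_eq_closure]
    rw [h1]
    have h2 : Nat.card ↥(Subgroup.zpowers a ⊔ Subgroup.closure (S : Set Q)) ≤
        Nat.card (Subgroup.zpowers a) * Nat.card (Subgroup.closure (S : Set Q)) := by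
      rw [← Nat.card_prod]
      apply Nat.card_le_card_of_surjective
        (fun x : Subgroup.zpowers a × Subgroup.closure (S : Set Q) =>
          (⟨x.1.1 * x.2.1, Subgroup.mul_mem_sup x.1.2 x.2.2⟩ :
            ↥(Subgroup.zpowers a ⊔ Subgroup.closure (S : Set Q))))
      rintro ⟨x, hx⟩
      obtain ⟨y, hy, z, hz, rfl⟩ := Subgroup.mem_sup.mp hx
      exact ⟨(⟨y, hy⟩, ⟨z, hz⟩), rfl⟩
    have h3 : Nat.card (Subgroup.zpowers a) ≤ p := by
      rw [Nat.card_zpowers]
      exact Nat.le_of_dvd hp (orderOf_dvd_of_pow_eq_one (hS a (Finset.mem_insert_self a S)))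
    have h4 := ih (fun s hs => hS s (Finset.mem_insert_of_mem hs))
    calc _ ≤ _ := h2
      _ ≤ p * p ^ S.card := Nat.mul_le_mul h3 h4
      _ = p ^ (S.card + 1) := by ring

/-- `|Ω₁(P)| ≤ p ^ rank P` for a finite commutative group. -/
theorem card_omega_le {P : Type*} [CommGroup P] [Finite P] (p : ℕ) (hp : 0 < p) :
    Nat.card (powMonoidHom p : P →* P).ker ≤ p ^ Group.rank P := by
  classical
  obtain ⟨S, hS, hSc⟩ := Group.rank_spec P
  set f : P →* P := powMonoidHom p with hf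
  rw [← Subgroup.index_range, Subgroup.index_eq_card]
  have h1 : Subgroup.closure ((S.image (QuotientGroup.mk' f.range) : Finset (P ⧸ f.range)) :
      Set (P ⧸ f.range)) = ⊤ := by
    rw [Finset.coe_image, ← MonoidHom.map_closure, hSc, ← MonoidHom.range_eq_map,
      QuotientGroup.range_mk']
  have h2 := card_closure_le p hp (S.image (QuotientGroup.mk' f.range)) (by
    intro s hs
    obtain ⟨t, -, rfl⟩ := Finset.mem_image.mp hs
    rw [← map_pow, QuotientGroup.mk'_apply, QuotientGroup.eq_one_iff]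
    exact ⟨t, rfl⟩)
  rw [h1, Subgroup.card_top] at h2
  exact h2.trans (Nat.pow_le_pow_right hp (hS ▸ Finset.card_image_le))

/-- An automorphism of prime order `q ≠ p` of an abelian `p`-group moves some element of
order dividing `p`. -/
theorem exists_moved_omega {P : Type*} [CommGroup P] [Finite P] {p : ℕ} [Fact p.Prime]
    (hP : IsPGroup p P) (α : MulAut P) (q : ℕ) (hq : q.Prime) (hqp : q ≠ p)
    (hα : orderOf α = q) : ∃ z : P, z ^ p = 1 ∧ α z ≠ z := by
  have hp := (Fact.out : p.Prime)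
  by_contra hfix
  push Not at hfix
  have hα1 : α ≠ 1 := by
    intro h
    rw [h, orderOf_one] at hα
    exact hq.one_lt.ne' hα.symm
  obtain ⟨x, hx⟩ : ∃ x, α x ≠ x := by
    by_contra h
    push Not at h
    exact hα1 (MulEquiv.ext h)
  set w := α x * x⁻¹ with hw
  have hw1 : w ≠ 1 := by
    intro h
    rw [hw, mul_inv_eq_one] at h
    exact hx h
  obtain ⟨k, hk⟩ := (IsPGroup.iff_orderOf.mp hP) w
  have hk0 : k ≠ 0 := by
    rintro rfl
    rw [pow_zero, orderOf_eq_one_iff] at hk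
    exact hw1 hk
  obtain ⟨x', hx'⟩ : ∃ x', x' = x ^ (p ^ (k - 1)) := ⟨_, rfl⟩
  obtain ⟨z, hz⟩ : ∃ z, z = α x' * x'⁻¹ := ⟨_, rfl⟩
  have hzw : z = w ^ (p ^ (k - 1)) := by
    rw [hz, hx', map_pow, hw, mul_pow, inv_pow]
  have hzp : z ^ p = 1 := by
    rw [hzw, ← pow_mul, ← pow_succ, Nat.sub_add_cancel (Nat.pos_of_ne_zero hk0), ← hk,
      pow_orderOf_eq_one]
  have hz1 : z ≠ 1 := by
    rw [hzw]
    apply pow_ne_one_of_lt_orderOf (pow_ne_zero _ hp.ne_zero)
    rw [hk]
    exact Nat.pow_lt_pow_right hp.one_lt (by omega)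
  have hαz : α z = z := hfix z hzp
  have hαx' : α x' = z * x' := by rw [hz, inv_mul_cancel_right]
  have hpow : ∀ j : ℕ, (α ^ j) x' = z ^ j * x' := by
    intro j
    induction j with
    | zero => simp
    | succ j ih =>
      rw [pow_succ', MulAut.mul_apply, ih, map_mul, map_pow, hαz, hαx', pow_succ, mul_assoc]
  have h1 := hpow q
  rw [← hα, pow_orderOf_eq_one, MulAut.one_apply] at h1
  have hzq : z ^ orderOf α = 1 := by
    have h2 : z ^ orderOf α * x' = 1 * x' := by rw [one_mul]; exact h1.symm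
    exact mul_right_cancel h2
  rw [hα] at hzq
  have h3 : orderOf z ∣ Nat.gcd q p :=
    Nat.dvd_gcd (orderOf_dvd_of_pow_eq_one hzq) (orderOf_dvd_of_pow_eq_one hzp)
  rw [(Nat.coprime_primes hq hp).mpr hqp, Nat.dvd_one, orderOf_eq_one_iff] at h3
  exact hz1 h3

/-- An automorphism of prime order `q ≠ p` of an abelian `p`-group of rank `d` forces
`q ∣ p ^ i - 1` for some `1 ≤ i ≤ d`. -/
theorem exists_dvd_pow_sub_one {P : Type*} [CommGroup P] [Finite P] {p : ℕ} [Fact p.Prime]
    (hP : IsPGroup p P) (α : MulAut P) (q : ℕ) [Fact q.Prime] (hqp : q ≠ p)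
    (hα : orderOf α = q) : ∃ i, 1 ≤ i ∧ i ≤ Group.rank P ∧ q ∣ p ^ i - 1 := by
  have hp := (Fact.out : p.Prime)
  have hq := (Fact.out : q.Prime)
  obtain ⟨z₀, hz₀p, hz₀⟩ := exists_moved_omega hP α q hq hqp hα
  set Ω : Subgroup P := (powMonoidHom p : P →* P).ker with hΩ
  have hmemΩ : ∀ z : P, z ∈ Ω ↔ z ^ p = 1 := fun z => by
    rw [hΩ, MonoidHom.mem_ker, powMonoidHom_apply]
  -- the fixed points
  let Fx : Subgroup P :=
    { carrier := {z | z ^ p = 1 ∧ α z = z}
      mul_mem' := by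
        rintro a b ⟨ha1, ha2⟩ ⟨hb1, hb2⟩
        exact ⟨by rw [mul_pow, ha1, hb1, one_mul], by rw [map_mul, ha2, hb2]⟩
      one_mem' := ⟨one_pow p, map_one α⟩
      inv_mem' := by
        rintro a ⟨ha1, ha2⟩
        exact ⟨by rw [inv_pow, ha1, inv_one], by rw [map_inv, ha2]⟩ }
  have hFxΩ : Fx ≤ Ω := fun z hz => (hmemΩ z).mpr hz.1
  have hFxlt : Nat.card Fx < Nat.card Ω := by
    apply lt_of_le_of_ne (Subgroup.card_le_of_le hFxΩ)
    intro h
    have h1 : Fx = Ω := Subgroup.eq_of_le_of_card_ge hFxΩ h.ge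
    have h2 : z₀ ∈ Fx := h1 ▸ (hmemΩ z₀).mpr hz₀p
    exact hz₀ h2.2
  obtain ⟨m, hm⟩ := IsPGroup.iff_card.mp (hP.to_subgroup Ω)
  obtain ⟨j, hj⟩ := IsPGroup.iff_card.mp (hP.to_subgroup Fx)
  have hjm : j < m := by
    rw [hm, hj] at hFxlt
    exact (Nat.pow_lt_pow_iff_right hp.one_lt).mp hFxlt
  -- the action of ⟨α⟩ on Ω
  set H : Subgroup (MulAut P) := Subgroup.zpowers α with hH
  have hHq : IsPGroup q H := IsPGroup.of_card (n := 1) (by rw [hH, Nat.card_zpowers, hα, pow_one])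
  let act : MulAction H Ω :=
    { smul := fun g z => ⟨g.1 z.1, (hmemΩ _).mpr (by rw [← map_pow, (hmemΩ _).mp z.2, map_one])⟩
      one_smul := fun z => Subtype.ext rfl
      mul_smul := fun g h z => Subtype.ext rfl }
  have hcong := hHq.card_modEq_card_fixedPoints Ω
  have hfixcard : Nat.card (MulAction.fixedPoints H Ω) = Nat.card Fx := by
    apply Nat.card_congr
    refine
      { toFun := fun z => ⟨z.1.1, (hmemΩ _).mp z.1.2, ?_⟩
        invFun := fun z => ⟨⟨z.1, hFxΩ z.2⟩, ?_⟩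
        left_inv := fun _ => rfl
        right_inv := fun _ => rfl }
    · have h1 := z.2 ⟨α, Subgroup.mem_zpowers α⟩
      exact congrArg Subtype.val h1
    · rintro ⟨g, hg⟩
      apply Subtype.ext
      show g z.1 = z.1
      have h1 : Subgroup.zpowers α ≤ MulAction.stabilizer (MulAut P) z.1 := by
        rw [Subgroup.zpowers_le, MulAction.mem_stabilizer_iff]
        exact z.2.2
      exact MulAction.mem_stabilizer_iff.mp (h1 hg)
  rw [hfixcard, hm, hj] at hcong
  have hle : p ^ j ≤ p ^ m := Nat.pow_le_pow_right hp.pos hjm.le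
  have hdvd : q ∣ p ^ m - p ^ j := (Nat.modEq_iff_dvd' hle).mp hcong.symm
  have hfac : p ^ m - p ^ j = p ^ j * (p ^ (m - j) - 1) := by
    rw [Nat.mul_sub, mul_one, ← pow_add, Nat.add_sub_cancel' hjm.le]
  rw [hfac] at hdvd
  have hcop : Nat.Coprime q (p ^ j) := Nat.Coprime.pow_right _ ((Nat.coprime_primes hq hp).mpr hqp)
  refine ⟨m - j, by omega, ?_, hcop.dvd_of_dvd_mul_left hdvd⟩
  have h5 := card_omega_le (P := P) p hp.pos
  rw [← hΩ, hm] at h5
  have h6 := (Nat.pow_le_pow_iff_right hp.one_lt).mp h5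
  omega

end Cfsg.Agent.Lib.Helper21.CoprimeAut
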