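import Mathlib
import Cfsg.Agent.Lib.Helper21.Compl
import Cfsg.Agent.Lib.Helper21.Engel

set_option autoImplicit false

/-! Trivial-intersection (TI) subgroups: elementwise form and transport to conjugates. -/

namespace Cfsg.Agent.Lib.Helper21.TI

open Cfsg.Agent.Lib.Helper21.Compl
open scoped Pointwise

variable {G : Type*} [Group G]

/-- The TI property in elementwise form. -/
theorem ti_iff (P : Subgroup G) :
    (∀ g : G, g ∉ Subgroup.normalizer (P : Set G) → P ⊓ (MulAut.conj g • P) = ⊥) ↔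
    ∀ g w : G, w ∈ P → g⁻¹ * w * g ∈ P → w ≠ 1 → g ∈ Subgroup.normalizer (P : Set G) := by
  constructor
  · intro h g w hw hgw hw1
    by_contra hg
    have h1 := h g hg
    have h2 : w ∈ P ⊓ (MulAut.conj g • P) := ⟨hw, (mem_conj_smul g w P).mpr hgw⟩
    rw [h1, Subgroup.mem_bot] at h2
    exact hw1 h2
  · intro h g hg
    rw [eq_bot_iff]
    intro w hw
    rw [Subgroup.mem_bot]
    by_contra hw1
    exact hg (h g w hw.1 ((mem_conj_smul g w P).mp hw.2) hw1)

/-- The TI property passes to conjugates. -/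
theorem ti_conj [Finite G] (P : Subgroup G) (c : G)
    (h : ∀ g w : G, w ∈ P → g⁻¹ * w * g ∈ P → w ≠ 1 → g ∈ Subgroup.normalizer (P : Set G)) :
    ∀ g w : G, w ∈ MulAut.conj c • P → g⁻¹ * w * g ∈ MulAut.conj c • P → w ≠ 1 →
      g ∈ Subgroup.normalizer ((MulAut.conj c • P : Subgroup G) : Set G) := by
  intro g w hw hgw hw1
  rw [mem_conj_smul] at hw hgw
  have h1 : c⁻¹ * g * c ∈ Subgroup.normalizer (P : Set G) := by
    apply h (c⁻¹ * g * c) (c⁻¹ * w * c) hw
    · have h3 : (c⁻¹ * g * c)⁻¹ * (c⁻¹ * w * c) * (c⁻¹ * g * c) = c⁻¹ * (g⁻¹ * w * g) * c := by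
        group
      rw [h3]
      exact hgw
    · intro h2
      apply hw1
      calc w = c * (c⁻¹ * w * c) * c⁻¹ := by group
        _ = 1 := by rw [h2]; group
  apply Cfsg.Agent.Lib.Helper21.Engel.mem_normalizer_of_conj_le
  intro d hd
  rw [mem_conj_smul] at hd ⊢
  have h2 := (Subgroup.mem_set_normalizer_iff.mp h1 (c⁻¹ * d * c)).mp hd
  have h3 : c⁻¹ * (g * d * g⁻¹) * c = c⁻¹ * g * c * (c⁻¹ * d * c) * (c⁻¹ * g * c)⁻¹ := by group
  rw [h3]
  exact h2

/-- If one Sylow `p`-subgroup is TI, all are (elementwise form). -/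
theorem ti_sylow [Finite G] {p : ℕ} [Fact p.Prime] (P : Sylow p G)
    (h : ∀ g : G, g ∉ Subgroup.normalizer ((P : Subgroup G) : Set G) →
      (P : Subgroup G) ⊓ (MulAut.conj g • (P : Subgroup G)) = ⊥) (P₁ : Sylow p G) :
    ∀ g w : G, w ∈ (P₁ : Subgroup G) → g⁻¹ * w * g ∈ (P₁ : Subgroup G) → w ≠ 1 →
      g ∈ Subgroup.normalizer ((P₁ : Subgroup G) : Set G) := by
  obtain ⟨c, hc⟩ := MulAction.exists_smul_eq G P P₁
  have h1 := ti_conj (P : Subgroup G) c ((ti_iff _).mp h)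
  rw [← hc]
  exact h1

end Cfsg.Agent.Lib.Helper21.TI
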